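import Cfsg.Prelude.Def_BlockRank
import Cfsg.Agent.Characters.Core
import Cfsg.Agent.Blocks.Basic
import Cfsg.Agent.Blocks.Local
import Cfsg.Agent.CharactersDeep.ExtUnique
import Mathlib

/-!
# S4879: the rank of the principal block, coset by coset (helper232)

`H` normal in `G` of prime index `ℓ`, containing the centralisers of the elements of order `p`. If `n` members of the
principal block have different irreducible restrictions to `T ≤ H`, then the rank is at least `1 + n (ℓ - 1)`.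

* `le_rank_gen`; `le_rank` : `p = 11`, `ℓ = 5`, `n = 3`.
-/

set_option autoImplicit false
set_option linter.unusedSectionVars false

open Cfsg Cfsg.Agent.Characters.Core
open scoped ComplexConjugate

namespace Cfsg.Agent.H232.LB

universe u

section

variable {G : Type u} [Group G] [Finite G]

/-- irreducible on a subgroup, hence on the groups between -/
theorem irr_of_sub {T : Subgroup G} {χ : G → ℂ} (hχ : IsCharacter G χ) (h : IsIrrCharacter T (fun t : T => χ t))
    (H : Subgroup G) (hTH : T ≤ H) : IsIrrCharacter H (fun t : H => χ t) := by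
  obtain ⟨n, ρ, rfl⟩ := hχ
  obtain ⟨m, τ, hτ, hc⟩ := h
  let ρT : Representation ℂ T (Fin n → ℂ) := ρ.comp T.subtype
  obtain ⟨e, he⟩ := CharactersDeep.ExtUnique.exists_linearEquiv_of_character_eq τ ρT hτ (hc.trans rfl)
  have h1 : ρT.IsIrreducible := isIrreducible_of_equiv
    (Representation.Equiv.mk e (fun g => LinearMap.ext fun v => he g v)) hτ
  let ρH : Representation ℂ H (Fin n → ℂ) := ρ.comp H.subtype
  refine ⟨n, ρH, ?_, rfl⟩
  have hnt : (⊥ : Subrepresentation ρT) ≠ ⊤ := h1.bot_ne_top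
  have hnt' : (⊥ : Subrepresentation ρH) ≠ ⊤ := by
    intro h0
    apply hnt
    refine SetLike.ext fun z => ?_
    have h1 : z ∈ (⊥ : Subrepresentation ρH) ↔ z ∈ (⊤ : Subrepresentation ρH) := by rw [h0]
    exact h1
  have : Nontrivial (Subrepresentation ρH) := ⟨⊥, ⊤, hnt'⟩
  refine { eq_bot_or_eq_top := fun σ => ?_ }
  let σ' : Subrepresentation ρT :=
    { toSubmodule := σ.toSubmodule
      apply_mem_toSubmodule := fun g v hv => σ.apply_mem_toSubmodule ⟨g, hTH g.2⟩ hv }
  rcases h1.eq_bot_or_eq_top σ' with h1 | h1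
  · left
    refine SetLike.ext fun z => ?_
    have h2 : z ∈ σ' ↔ z ∈ (⊥ : Subrepresentation ρT) := by rw [h1]
    exact h2
  · right
    refine SetLike.ext fun z => ?_
    have h2 : z ∈ σ' ↔ z ∈ (⊤ : Subrepresentation ρT) := by rw [h1]
    exact h2

/-- the twist of a member -/
noncomputable def tw (l : G →* ℂˣ) (χ : IrrCharacter G) : IrrCharacter G :=
  ⟨fun g => (χ : G → ℂ) g * l g, CharactersDeep.ExtUnique.isIrr_mul_hom χ.2 l⟩

theorem tw_apply (l : G →* ℂˣ) (χ : IrrCharacter G) (g : G) : (tw l χ : G → ℂ) g = (χ : G → ℂ) g * l g := rfl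

theorem isIntegral_lin (l : G →* ℂˣ) (g : G) : IsIntegral ℤ (l g : ℂ) := by
  refine ⟨Polynomial.X ^ Nat.card G - 1, Polynomial.monic_X_pow_sub_C 1 Nat.card_pos.ne', ?_⟩
  have h1 : (l g) ^ Nat.card G = 1 := by rw [← map_pow, pow_card_eq_one', map_one]
  have h := congrArg (Units.val) h1
  rw [Units.val_pow_eq_pow_val, Units.val_one] at h
  simp [h]

/-- closure of the principal block under twists -/
theorem tw_mem {p : ℕ} {M : Ideal AlgInt} (hM : IsPModular p M) (hG : p ∣ Nat.card G) {l : G →* ℂˣ}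
    (hl : ∀ g, l g ≠ 1 → ¬ p ∣ Nat.card (Subgroup.centralizer ({g} : Set G))) {χ : IrrCharacter G}
    (hχ : χ ∈ principalBlock M G) : tw l χ ∈ principalBlock M G := by
  have := Blocks.Local.isPrime_of_isPModular hM
  intro g
  have hc : centralChar (tw l χ : G → ℂ) g = (l g : ℂ) * centralChar (χ : G → ℂ) g := by
    unfold centralChar
    rw [tw_apply, tw_apply, map_one, Units.val_one, mul_one]
    ring
  have h0 : MemLocalIdeal M (centralChar (fun _ : G => (1 : ℂ)) g - centralChar (χ : G → ℂ) g) := hχ g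
  by_cases h : l g = 1
  · rw [hc, h, Units.val_one, one_mul]
    exact h0
  · have h1 : p ∣ (Subgroup.centralizer ({g} : Set G)).index := by
      have h2 := Subgroup.card_mul_index (Subgroup.centralizer ({g} : Set G))
      rw [← h2] at hG
      exact (hM.1.dvd_mul.1 hG).resolve_left (hl g h)
    have h3 : MemLocalIdeal M (centralChar (fun _ : G => (1 : ℂ)) g) := by
      obtain ⟨k, hk⟩ := h1
      have h4 : centralChar (fun _ : G => (1 : ℂ)) g = (p : ℂ) * (k : ℂ) := by
        unfold centralChar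
        rw [hk]
        push_cast
        ring
      rw [h4]
      refine Blocks.Local.memLocalIdeal_mul_right ?_ (Blocks.Local.memLocalRing_natCast k)
      have h5 := Blocks.Local.memLocalIdeal_of_mem (Blocks.Local.p_mem_of_isPModular hM)
      simpa using h5
    have h4 : MemLocalIdeal M (centralChar (χ : G → ℂ) g) := (Blocks.Local.memLocalIdeal_iff_of_sub h0).1 h3
    rw [hc]
    exact Blocks.Local.memLocalIdeal_sub h3 (Blocks.Local.memLocalIdeal_mul_left
      (Blocks.Local.memLocalRing_of_isIntegral (isIntegral_lin l g)) h4)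

/-- a linear character with kernel `H` of prime index -/
theorem exists_lin (H : Subgroup G) [H.Normal] {ℓ : ℕ} (hℓ : ℓ.Prime) (hH : H.index = ℓ) :
    ∃ l : G →* ℂˣ, (∀ g, l g ^ ℓ = 1) ∧ ∀ g, l g = 1 ↔ g ∈ H := by
  have hfact : Fact ℓ.Prime := ⟨hℓ⟩
  have hcard : Nat.card (G ⧸ H) = ℓ := hH
  have hcyc : IsCyclic (G ⧸ H) := isCyclic_of_prime_card hcard
  let _ : CommGroup (G ⧸ H) := IsCyclic.commGroup
  have hnt : Nontrivial (G ⧸ H) := by
    rw [← Finite.one_lt_card_iff_nontrivial, hcard]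
    exact hℓ.one_lt
  obtain ⟨a, ha⟩ := exists_ne (1 : G ⧸ H)
  have : NeZero (Monoid.exponent (G ⧸ H)) := ⟨Monoid.exponent_ne_zero_of_finite⟩
  obtain ⟨φ, hφ⟩ := CommGroup.exists_apply_ne_one_of_hasEnoughRootsOfUnity (G ⧸ H) ℂ ha
  have hker : ∀ x, φ x = 1 ↔ x = 1 := by
    intro x
    refine ⟨fun hx => ?_, fun hx => by rw [hx, map_one]⟩
    by_contra hne
    have h1 : Subgroup.zpowers x = ⊤ := by
      have h2 := (Subgroup.zpowers x).card_subgroup_dvd_card
      rw [hcard] at h2
      rcases (Nat.dvd_prime hℓ).1 h2 with h3 | h3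
      · exfalso
        apply hne
        rw [Nat.card_zpowers, orderOf_eq_one_iff] at h3
        exact h3
      · exact Subgroup.eq_top_of_card_eq _ (by rw [h3, hcard])
    have h2 : a ∈ Subgroup.zpowers x := by rw [h1]; exact Subgroup.mem_top _
    obtain ⟨k, rfl⟩ := h2
    exact hφ (by simp only [map_zpow, hx, one_zpow])
  refine ⟨φ.comp (QuotientGroup.mk' H), fun g => ?_, fun g => ?_⟩
  · rw [← map_pow]
    show φ (QuotientGroup.mk' H (g ^ ℓ)) = 1
    rw [map_pow, ← hcard, pow_card_eq_one', map_one]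
  · rw [MonoidHom.comp_apply, hker, QuotientGroup.mk'_apply, QuotientGroup.eq_one_iff]

end

/-- the indicator of a coset -/
theorem indic {ℓ : ℕ} (hℓ : 0 < ℓ) {z : ℂ} (hz : z ^ ℓ = 1) :
    (ℓ : ℂ)⁻¹ * ∑ k ∈ Finset.range ℓ, z ^ k = if z = 1 then 1 else 0 := by
  split_ifs with h
  · subst h
    simp [hℓ.ne']
  · rw [geom_sum_eq h, hz, sub_self, zero_div, mul_zero]

section

variable {G : Type u} [Group G] [Fintype G]

/-- the sum over a coset -/
theorem coset_sum {ℓ : ℕ} (hℓ : 0 < ℓ) (l : G →* ℂˣ) (hl : ∀ g, l g ^ ℓ = 1) {z : ℂ} (hz : z ^ ℓ = 1)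
    (f : G → ℂ) (hf : ∀ k, 0 < k → k < ℓ → ∑ g, (l g : ℂ) ^ k * f g = 0) :
    ∑ g, (if (l g : ℂ) = z then f g else 0) = (ℓ : ℂ)⁻¹ * ∑ g, f g := by
  have hz0 : z ≠ 0 := by
    rintro rfl
    rw [zero_pow hℓ.ne'] at hz
    exact zero_ne_one hz
  have h1 : ∀ g, (if (l g : ℂ) = z then f g else 0) =
      (ℓ : ℂ)⁻¹ * ∑ k ∈ Finset.range ℓ, (z⁻¹) ^ k * ((l g : ℂ) ^ k * f g) := by
    intro g
    have h2 : ((l g : ℂ) * z⁻¹) ^ ℓ = 1 := by
      rw [mul_pow, inv_pow, hz, inv_one, mul_one, ← Units.val_pow_eq_pow_val, hl, Units.val_one]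
    have h3 := indic hℓ h2
    have h4 : ((l g : ℂ) * z⁻¹ = 1) ↔ ((l g : ℂ) = z) := by
      rw [← div_eq_mul_inv, div_eq_one_iff_eq hz0]
    have h5 : ∑ k ∈ Finset.range ℓ, (z⁻¹) ^ k * ((l g : ℂ) ^ k * f g) =
        (∑ k ∈ Finset.range ℓ, ((l g : ℂ) * z⁻¹) ^ k) * f g := by
      rw [Finset.sum_mul]
      refine Finset.sum_congr rfl fun k _ => ?_
      rw [mul_pow]
      ring
    rw [h5, ← mul_assoc, h3]
    simp only [h4]
    split_ifs
    · rw [one_mul]
    · rw [zero_mul]
  rw [Finset.sum_congr rfl fun g _ => h1 g, ← Finset.mul_sum, Finset.sum_comm]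
  congr 1
  rw [Finset.sum_eq_single 0]
  · simp
  · intro k hk hk0
    rw [← Finset.mul_sum, hf k (Nat.pos_of_ne_zero hk0) (Finset.mem_range.1 hk), mul_zero]
  · intro h
    exact absurd (Finset.mem_range.2 hℓ) h

end

section

variable {G : Type u} [Group G] [Finite G]

/-- twists of a character irreducible on `T` are different -/
theorem tw_ne {ℓ : ℕ} (hℓ : ℓ.Prime) {T H : Subgroup G} (hTH : T ≤ H) (hH : H.index = ℓ) {l : G →* ℂˣ}
    (hl1 : ∀ g, l g ^ ℓ = 1) (hl2 : ∀ g, l g = 1 ↔ g ∈ H) {χ : IrrCharacter G}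
    (hirr : IsIrrCharacter T (fun t : T => (χ : G → ℂ) t)) {k : ℕ} (hk : 0 < k) (hkℓ : k < ℓ)
    (h : ∀ g, (l g : ℂ) ^ k * (χ : G → ℂ) g = (χ : G → ℂ) g) : False := by
  classical
  have := Fintype.ofFinite G
  have hne : ∀ g, g ∉ H → (χ : G → ℂ) g = 0 := by
    intro g hg
    have h1 : ((l g : ℂ) ^ k - 1) * (χ : G → ℂ) g = 0 := by rw [sub_mul, h, one_mul, sub_self]
    rcases mul_eq_zero.1 h1 with h2 | h2
    · exfalso
      apply hg
      rw [← hl2]
      have h3 : l g ^ k = 1 := by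
        apply Units.ext
        rw [Units.val_pow_eq_pow_val, Units.val_one]
        exact sub_eq_zero.1 h2
      have h4 : orderOf (l g) ∣ Nat.gcd k ℓ := Nat.dvd_gcd (orderOf_dvd_of_pow_eq_one h3)
        (orderOf_dvd_of_pow_eq_one (hl1 g))
      have h5 : Nat.gcd k ℓ = 1 := by
        rw [Nat.gcd_comm]
        exact (Nat.Coprime.gcd_eq_one ((Nat.Prime.coprime_iff_not_dvd hℓ).2 fun h6 => absurd (Nat.le_of_dvd hk h6) (by omega)))
      rw [h5, Nat.dvd_one, orderOf_eq_one_iff] at h4
      exact h4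
    · exact h2
  have hH1 := irr_of_sub (isIrr_isCharacter χ.2) hirr H hTH
  have h1 := classInner_irr_self hH1
  have h2 := classInner_irr_self χ.2
  rw [classInner_def] at h1 h2
  have h3 : ∑ g : G, (χ : G → ℂ) g * conj ((χ : G → ℂ) g) = ∑ h : H, (χ : G → ℂ) h * conj ((χ : G → ℂ) h) := by
    rw [← Finset.sum_subtype (Finset.univ.filter fun g => g ∈ H) (fun x => by simp)
      (fun g => (χ : G → ℂ) g * conj ((χ : G → ℂ) g)), Finset.sum_filter]
    refine Finset.sum_congr rfl fun g _ => ?_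
    split_ifs with hg
    · rfl
    · rw [hne g hg, zero_mul]
  have h4 : (Nat.card G : ℂ) ≠ 0 := Nat.cast_ne_zero.2 Nat.card_pos.ne'
  have h5 : (Nat.card H : ℂ) ≠ 0 := Nat.cast_ne_zero.2 Nat.card_pos.ne'
  rw [h3, inv_mul_eq_one₀ h4] at h2
  rw [inv_mul_eq_one₀ h5, ← h2] at h1
  have h6 : Nat.card H = Nat.card G := by exact_mod_cast h1
  have h7 := H.card_mul_index
  rw [hH, h6] at h7
  have h8 : 0 < Nat.card G := Nat.card_pos
  have h9 := hℓ.two_le
  nlinarith

/-- **The rank, coset by coset.** -/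
theorem le_rank_gen {p ℓ n : ℕ} (hℓ : ℓ.Prime) {M : Ideal AlgInt} (hM : IsPModular p M) (hG : p ∣ Nat.card G)
    (T H : Subgroup G) [H.Normal] (hTH : T ≤ H) (hH : H.index = ℓ)
    (hc : ∀ x : G, orderOf x = p → Subgroup.centralizer ({x} : Set G) ≤ H)
    (χ : Fin n → IrrCharacter G) (h0 : ∀ i, χ i ∈ principalBlock M G)
    (hirr : ∀ i, IsIrrCharacter T (fun t : T => (χ i : G → ℂ) t))
    (hinj : ∀ i j, (∀ t : T, (χ i : G → ℂ) t = (χ j : G → ℂ) t) → i = j) (hn : 0 < n) :
    1 + n * (ℓ - 1) ≤ blockRank p (principalBlock M G) := by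
  classical
  have := Fintype.ofFinite G
  have := Fintype.ofFinite (G ⧸ H)
  have hp := hM.1
  have hfp : Fact p.Prime := ⟨hp⟩
  obtain ⟨l, hl1, hl2⟩ := exists_lin H hℓ hH
  have hcen : ∀ g, l g ≠ 1 → ¬ p ∣ Nat.card (Subgroup.centralizer ({g} : Set G)) := by
    intro g hg hd
    obtain ⟨⟨x, hx⟩, hxo⟩ := exists_prime_orderOf_dvd_card' p hd
    apply hg
    rw [hl2]
    have h1 : orderOf x = p := by rw [← hxo, Subgroup.orderOf_mk]
    apply hc x h1
    rw [Subgroup.mem_centralizer_singleton_iff] at hx ⊢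
    exact hx.symm
  have hreg : ∀ g, l g ≠ 1 → IsPRegular p g := by
    intro g hg hd
    apply hcen g hg
    refine hd.trans ?_
    have h1 : g ∈ Subgroup.centralizer ({g} : Set G) := by rw [Subgroup.mem_centralizer_singleton_iff]
    have h2 := orderOf_dvd_natCard (⟨g, h1⟩ : Subgroup.centralizer ({g} : Set G))
    rwa [Subgroup.orderOf_mk] at h2
  -- the twisted members
  have hmem : ∀ (ψ : IrrCharacter G), ψ ∈ principalBlock M G → ∀ k : ℕ, tw (l ^ k) ψ ∈ principalBlock M G := by
    intro ψ hψ k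
    refine tw_mem hM hG (fun g hg => hcen g ?_) hψ
    intro h1
    apply hg
    rw [MonoidHom.pow_apply, h1, one_pow]
  set W := Submodule.span ℂ ((fun ψ : IrrCharacter G => pRegularPart p (ψ : G → ℂ)) '' principalBlock M G) with hW
  have hz0 : ∀ z : ℂ, z ^ ℓ = 1 → z ≠ 0 := by
    rintro z hz rfl
    rw [zero_pow hℓ.pos.ne'] at hz
    exact zero_ne_one hz
  have hlz : ∀ g, ((l g : ℂˣ) : ℂ) ^ ℓ = 1 := fun g => by
    rw [← Units.val_pow_eq_pow_val, hl1, Units.val_one]
  have hWmem : ∀ (ψ : IrrCharacter G), ψ ∈ principalBlock M G → ∀ z : ℂ, z ^ ℓ = 1 →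
      (fun g => if (l g : ℂ) = z then pRegularPart p (ψ : G → ℂ) g else 0) ∈ W := by
    intro ψ hψ z hz
    have h1 : (fun g => if (l g : ℂ) = z then pRegularPart p (ψ : G → ℂ) g else 0) =
        ∑ k ∈ Finset.range ℓ, ((ℓ : ℂ)⁻¹ * (z⁻¹) ^ k) • pRegularPart p (tw (l ^ k) ψ : G → ℂ) := by
      funext g
      have h2 : ((l g : ℂ) * z⁻¹) ^ ℓ = 1 := by
        rw [mul_pow, inv_pow, hz, inv_one, mul_one, hlz]
      have h3 := indic hℓ.pos h2
      have h4 : ((l g : ℂ) * z⁻¹ = 1) ↔ ((l g : ℂ) = z) := by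
        rw [← div_eq_mul_inv, div_eq_one_iff_eq (hz0 z hz)]
      rw [Finset.sum_apply]
      have h5 : ∀ k, (((ℓ : ℂ)⁻¹ * (z⁻¹) ^ k) • pRegularPart p (tw (l ^ k) ψ : G → ℂ)) g =
          (ℓ : ℂ)⁻¹ * (((l g : ℂ) * z⁻¹) ^ k * pRegularPart p (ψ : G → ℂ) g) := by
        intro k
        rw [Pi.smul_apply, smul_eq_mul]
        unfold pRegularPart
        split_ifs
        · rw [tw_apply, MonoidHom.pow_apply, Units.val_pow_eq_pow_val, mul_pow]
          ring
        · rw [mul_zero, mul_zero, mul_zero]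
      rw [Finset.sum_congr rfl fun k _ => h5 k, ← Finset.mul_sum, ← Finset.sum_mul, ← mul_assoc, h3]
      simp only [h4]
      split_ifs
      · rw [one_mul]
      · rw [zero_mul]
    rw [h1]
    refine Submodule.sum_mem _ fun k _ => Submodule.smul_mem _ _ (Submodule.subset_span ⟨_, hmem ψ hψ k, rfl⟩)
  -- orthogonality on the cosets
  have hS : ∀ i j : Fin n, ∀ z : ℂ, z ^ ℓ = 1 →
      ∑ g, (if (l g : ℂ) = z then (χ i : G → ℂ) g * conj ((χ j : G → ℂ) g) else 0) =
        if i = j then (ℓ : ℂ)⁻¹ * Nat.card G else 0 := by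
    intro i j z hz
    have hcG : (Nat.card G : ℂ) ≠ 0 := Nat.cast_ne_zero.2 Nat.card_pos.ne'
    have hin : ∀ (ψ φ : IrrCharacter G), ∑ g, (ψ : G → ℂ) g * conj ((φ : G → ℂ) g) =
        if (ψ : G → ℂ) = φ then (Nat.card G : ℂ) else 0 := by
      intro ψ φ
      have h1 := classInner_irr ψ.2 φ.2
      rw [classInner_def] at h1
      rw [inv_mul_eq_iff_eq_mul₀ hcG] at h1
      rw [h1]
      split_ifs
      · rw [mul_one]
      · rw [mul_zero]
    rw [coset_sum hℓ.pos l hl1 hz (fun g => (χ i : G → ℂ) g * conj ((χ j : G → ℂ) g)), hin]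
    · by_cases hij : i = j
      · rw [if_pos hij, if_pos (by rw [hij])]
      · have h1 : ¬ ((χ i : G → ℂ) = χ j) := fun h => hij (hinj i j fun t => congrFun h t)
        rw [if_neg hij, if_neg h1, mul_zero]
    · intro k hk hkℓ
      have h1 := hin (tw (l ^ k) (χ i)) (χ j)
      have h2 : ((tw (l ^ k) (χ i) : IrrCharacter G) : G → ℂ) ≠ χ j := by
        intro h
        have h3 : ∀ g, (χ i : G → ℂ) g * (l g : ℂ) ^ k = (χ j : G → ℂ) g := by
          intro g
          have h4 := congrFun h g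
          rwa [tw_apply, MonoidHom.pow_apply, Units.val_pow_eq_pow_val] at h4
        have h4 : i = j := hinj i j fun t => by
          have h5 := h3 t
          rw [(hl2 t).2 (hTH t.2), Units.val_one, one_pow, mul_one] at h5
          exact h5
        subst h4
        exact tw_ne hℓ hTH hH hl1 hl2 (hirr i) hk hkℓ fun g => by rw [mul_comm, h3]
      rw [if_neg h2] at h1
      rw [← h1]
      refine Finset.sum_congr rfl fun g _ => ?_
      rw [tw_apply, MonoidHom.pow_apply, Units.val_pow_eq_pow_val]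
      ring
  -- the family
  let C := {c : G ⧸ H // c ≠ 1}
  have hout : ∀ c : G ⧸ H, (QuotientGroup.mk (Quotient.out c) : G ⧸ H) = c := fun c => Quotient.out_eq' c
  have hinjc : ∀ c d : G ⧸ H, ((l (Quotient.out c) : ℂˣ) : ℂ) = l (Quotient.out d) → c = d := by
    intro c d h
    have h1 : l (Quotient.out c) = l (Quotient.out d) := Units.ext h
    have h2 : (Quotient.out c)⁻¹ * Quotient.out d ∈ H := by
      rw [← hl2, map_mul, map_inv, h1, inv_mul_cancel]
    rw [← QuotientGroup.eq, hout, hout] at h2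
    exact h2
  have hne1 : ∀ c : C, l (Quotient.out c.1) ≠ 1 := by
    intro c h
    rw [hl2, ← QuotientGroup.eq_one_iff, hout] at h
    exact c.2 h
  let i0 : Fin n := ⟨0, hn⟩
  let v : Unit ⊕ (Fin n × C) → (G → ℂ) := fun x => match x with
    | Sum.inl _ => fun g => if (l g : ℂ) = 1 then pRegularPart p (χ i0 : G → ℂ) g else 0
    | Sum.inr y => fun g => if (l g : ℂ) = l (Quotient.out y.2.1) then pRegularPart p (χ y.1 : G → ℂ) g else 0
  have hvW : ∀ x, v x ∈ W := by
    rintro (x | y)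
    · exact hWmem _ (h0 i0) 1 (one_pow _)
    · exact hWmem _ (h0 y.1) _ (hlz _)
  have hli : LinearIndependent ℂ v := by
    rw [Fintype.linearIndependent_iff]
    intro a ha
    have hev : ∀ g, a (Sum.inl ()) * (if (l g : ℂ) = 1 then pRegularPart p (χ i0 : G → ℂ) g else 0) +
        ∑ y : Fin n × C, a (Sum.inr y) *
          (if (l g : ℂ) = l (Quotient.out y.2.1) then pRegularPart p (χ y.1 : G → ℂ) g else 0) = 0 := by
      intro g
      have h1 := congrFun ha g
      rw [Fintype.sum_sum_type] at h1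
      simpa [v, Finset.sum_apply] using h1
    rintro (⟨⟩ | ⟨j, c⟩)
    · have h1 := hev 1
      have h2 : ∑ y : Fin n × C, a (Sum.inr y) *
          (if (l (1 : G) : ℂ) = l (Quotient.out y.2.1) then pRegularPart p (χ y.1 : G → ℂ) 1 else 0) = 0 := by
        refine Finset.sum_eq_zero fun y _ => ?_
        rw [if_neg, mul_zero]
        intro h3
        apply hne1 y.2
        apply Units.ext
        rw [← h3, map_one]
      rw [h2, add_zero, if_pos (by rw [map_one, Units.val_one])] at h1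
      have h3 : pRegularPart p (χ i0 : G → ℂ) 1 ≠ 0 := by
        unfold pRegularPart
        rw [if_pos (by
          unfold IsPRegular
          rw [orderOf_one]
          exact hp.one_lt.ne' ∘ Nat.dvd_one.1)]
        exact isIrr_apply_one_ne_zero (χ i0).2
      exact (mul_eq_zero.1 h1).resolve_right h3
    · have h1 : ∀ g, (l g : ℂ) = l (Quotient.out c.1) → ∑ i, a (Sum.inr (i, c)) * (χ i : G → ℂ) g = 0 := by
        intro g hg
        have hg1 : l g ≠ 1 := fun h => hne1 c (Units.ext (by rw [← hg, h]))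
        have h2 := hev g
        have h3 : ¬ ((l g : ℂ) = 1) := fun h => hg1 (Units.ext (by rw [h, Units.val_one]))
        rw [if_neg h3, mul_zero, zero_add, Fintype.sum_prod_type] at h2
        rw [← h2]
        refine Finset.sum_congr rfl fun i _ => ?_
        rw [Finset.sum_eq_single c]
        · rw [if_pos hg]
          unfold pRegularPart
          rw [if_pos (hreg g hg1)]
        · intro d _ hd
          rw [if_neg, mul_zero]
          intro h3
          apply hd
          apply Subtype.ext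
          apply hinjc
          rw [← h3, hg]
        · intro h3
          exact absurd (Finset.mem_univ c) h3
      have h2 : ∑ g, (if (l g : ℂ) = l (Quotient.out c.1) then
          (∑ i, a (Sum.inr (i, c)) * (χ i : G → ℂ) g) * conj ((χ j : G → ℂ) g) else 0) = 0 := by
        refine Finset.sum_eq_zero fun g _ => ?_
        split_ifs with hg
        · rw [h1 g hg, zero_mul]
        · rfl
      have h3 : ∑ g, (if (l g : ℂ) = l (Quotient.out c.1) then
          (∑ i, a (Sum.inr (i, c)) * (χ i : G → ℂ) g) * conj ((χ j : G → ℂ) g) else 0) =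
          ∑ i, a (Sum.inr (i, c)) * ∑ g, (if (l g : ℂ) = l (Quotient.out c.1) then
            (χ i : G → ℂ) g * conj ((χ j : G → ℂ) g) else 0) := by
        simp_rw [Finset.mul_sum]
        rw [Finset.sum_comm]
        refine Finset.sum_congr rfl fun g _ => ?_
        split_ifs
        · rw [Finset.sum_mul]
          refine Finset.sum_congr rfl fun i _ => ?_
          ring
        · simp
      rw [h3, Finset.sum_eq_single j] at h2
      · rw [hS j j _ (hlz _), if_pos rfl] at h2
        have h4 : (ℓ : ℂ)⁻¹ * (Nat.card G : ℂ) ≠ 0 :=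
          mul_ne_zero (inv_ne_zero (Nat.cast_ne_zero.2 hℓ.pos.ne')) (Nat.cast_ne_zero.2 Nat.card_pos.ne')
        exact (mul_eq_zero.1 h2).resolve_right h4
      · intro i _ hi
        rw [hS i j _ (hlz _), if_neg hi, mul_zero]
      · intro h4
        exact absurd (Finset.mem_univ j) h4
  have hli' : LinearIndependent ℂ (fun x => (⟨v x, hvW x⟩ : W)) := LinearIndependent.of_comp W.subtype hli
  have hcard := hli'.fintype_card_le_finrank
  have hC : Fintype.card C = ℓ - 1 := by
    have h1 : Fintype.card (G ⧸ H) = ℓ := by rw [← Nat.card_eq_fintype_card]; exact hH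
    rw [Fintype.card_subtype_compl, Fintype.card_subtype_eq, h1]
  rw [Fintype.card_sum, Fintype.card_unit, Fintype.card_prod, Fintype.card_fin, hC] at hcard
  exact hcard

/-- the form for `²F₄(q)`, `p = 11` -/
theorem le_rank {M : Ideal AlgInt} (hM : IsPModular 11 M) (hG : 11 ∣ Nat.card G) (T H : Subgroup G) [T.Normal]
    [H.Normal] (hTH : T ≤ H) (hH : H.index = 5)
    (hc : ∀ x : G, orderOf x = 11 → Subgroup.centralizer ({x} : Set G) ≤ H)
    (χ : Fin 3 → IrrCharacter G) (h0 : ∀ i, χ i ∈ principalBlock M G)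
    (hirr : ∀ i, IsIrrCharacter T (fun t : T => (χ i : G → ℂ) t))
    (hinj : ∀ i j, (∀ t : T, (χ i : G → ℂ) t = (χ j : G → ℂ) t) → i = j) :
    11 ≤ blockRank 11 (principalBlock M G) := by
  have h1 := le_rank_gen (n := 3) (by norm_num : Nat.Prime 5) hM hG T H hTH hH hc χ h0 hirr hinj (by norm_num)
  omega

end

end Cfsg.Agent.H232.LB
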